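import Mathlib
import Cfsg.Agent.H277.EM.Univ
import Cfsg.Agent.H83.TwESix
import Cfsg.Agent.S2108
import Cfsg.Agent.S2109

/-!
# S2243, row `²E₆(q)`, `q` even (helper601)
-/

set_option autoImplicit false
set_option linter.unusedSectionVars false

namespace Cfsg.Agent.H601.EM.TwESix

open Subgroup Cfsg.Lie Cfsg.Agent.ChevalleyStructure Cfsg.Agent.ChevalleyStructure.Elts
  Cfsg.Agent.H83.ChevInv Cfsg.Agent.H83.OrthRed Cfsg.Agent.H83.FoldInv Cfsg.Agent.H83.FoldRel Cfsg.Agent.H83.TwESixTab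
  Cfsg.Agent.H83.TwESix Cfsg.Agent.H277.MI
open Cfsg.Agent.Nodes.RGDTwE6 (J foldData foldGrp hp isCartan)
open Cfsg.Agent.Nodes.RGDFold (nI wp wp_lt nI_cons)
open scoped commutatorElement

universe u v

section abs

variable {G : Type v} [Group G]

/-- conjugation of a pair by a pair -/
theorem pair_conj {u u' v v' s s' : G} (hu : u * u = 1) (hu' : u' * u' = 1) (hs' : s' * s' = 1)
    (h : u * v * u = v * s) (h' : u' * v' * u' = v' * s') (e1 : u * u' = u' * u) (e2 : u * v' = v' * u)
    (e3 : u * s' = s' * u) (e4 : u' * v = v * u') (e5 : s * v' = v' * s) :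
    (u * u') * (v * v') * (u * u')⁻¹ = (v * v') * (s * s') := by
  have hui : u⁻¹ = u := inv_eq_of_mul_eq_one_left hu
  have hui' : u'⁻¹ = u' := inv_eq_of_mul_eq_one_left hu'
  rw [mul_inv_rev, hui, hui']
  calc (u * u') * (v * v') * (u' * u) = u * (u' * v) * v' * u' * u := by group
    _ = u * v * (u' * v' * u') * u := by rw [e4]; group
    _ = u * v * (v' * s') * u := by rw [h']
    _ = u * v * v' * (s' * u) := by group
    _ = u * v * (v' * u) * s' := by rw [← e3]; group
    _ = (u * v * u) * v' * s' := by rw [← e2]; group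
    _ = v * (s * v') * s' := by rw [h]; group
    _ = (v * v') * (s * s') := by rw [e5]; group

/-- a pair commutes with a pair, the two cross commutators being equal -/
theorem pair_comm {u u' a a' z : G} (hu : u * u = 1) (hu' : u' * u' = 1) (hz : z * z = 1)
    (e1 : u * u' = u' * u) (e2 : u * a = a * u) (e3 : u' * a' = a' * u') (h1 : u * a' * u = a' * z)
    (h2 : u' * a * u' = a * z) (e4 : u * z = z * u) (e5 : z * a' = a' * z) : (u * u') * (a * a') = (a * a') * (u * u') := by
  calc (u * u') * (a * a') = u * (u' * a * u') * (u' * a') := by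
        rw [show u * (u' * a * u') * (u' * a') = u * u' * a * (u' * u') * a' by group, hu', mul_one]; group
    _ = u * a * z * (u' * a') := by rw [h2]; group
    _ = a * (u * z) * (u' * a') := by rw [e2]; group
    _ = a * z * u * (a' * u') := by rw [e4, e3]; group
    _ = a * z * (u * a' * u) * (u * u') := by
        rw [show a * z * (u * a' * u) * (u * u') = a * z * u * a' * (u * u) * u' by group, hu, mul_one]; group
    _ = a * (z * a') * z * (u * u') := by rw [h1]; group
    _ = a * a' * (z * z) * (u * u') := by rw [e5]; group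
    _ = (a * a') * (u * u') := by rw [hz, mul_one]

end abs

variable {K : Type u} [Field K] [Fintype K] [CharP K 2] {q : ℕ}

theorem hnG (hK : Fintype.card K = q ^ 2) : ∀ i, nI hp K (J i) ∈ twistedE6 K q := by
  have hq : IsPrimePow q := by
    obtain ⟨n, hpr, hcard⟩ := FiniteField.card K 2
    have h1 : IsPrimePow (q ^ 2) := by
      rw [← hK, hcard]
      exact (Nat.prime_two.isPrimePow).pow n.2.ne'
    exact (isPrimePow_pow_iff (by norm_num)).1 h1
  obtain ⟨φ, hφ, hqq⟩ := TwE6Basic.exists_frob hq hK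
  exact (foldGrp hφ hqq).nG

theorem mem_p (hK : Fintype.card K = q ^ 2) (ω : List (Fin 4)) {r r' : ℕ} (hr : bact chevE6 J ω 42 = r)
    (hr' : bact chevE6 J ω 37 = r') : xG hp.inList r (1 : K) * xG hp.inList r' 1 ∈ twistedE6 K q := by
  have h3 := mem_pair (K := K) (q := q) 1 (rs := (42, 37)) (by simp)
  rw [one_pow] at h3
  exact mem_word (hnG hK) ω (by decide +kernel) (by decide +kernel) h3 hr hr'

theorem mem_s (hK : Fintype.card K = q ^ 2) (ω : List (Fin 4)) {r : ℕ} (hr : bact chevE6 J ω 46 = r) :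
    xG hp.inList r (1 : K) ∈ twistedE6 K q := by
  have h46 : xG hp.inList 46 (1 : K) ∈ twistedE6 K q := by rw [← PX_one]; exact mem_single (by simp)
  exact mem_word1 (hnG hK) ω (by decide +kernel) h46 hr

/-- a pair of root elements -/
def P (hK : Fintype.card K = q ^ 2) (ω : List (Fin 4)) (r r' : ℕ) (h : bact chevE6 J ω 42 = r ∧ bact chevE6 J ω 37 = r') :
    ↥(twistedE6 K q) := ⟨xG hp.inList r (1 : K) * xG hp.inList r' 1, mem_p hK ω h.1 h.2⟩

/-- a single root element -/
def X (hK : Fintype.card K = q ^ 2) (ω : List (Fin 4)) (r : ℕ) (h : bact chevE6 J ω 46 = r) : ↥(twistedE6 K q) :=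
  ⟨xG hp.inList r (1 : K), mem_s hK ω h⟩

theorem X_sq (hK : Fintype.card K = q ^ 2) {ω : List (Fin 4)} {r : ℕ} (h : bact chevE6 J ω 46 = r) :
    X hK ω r h * X hK ω r h = 1 := Subtype.ext (xG_sq hp.inList r 1)

theorem P_sq (hK : Fintype.card K = q ^ 2) {ω : List (Fin 4)} {r r' : ℕ}
    (h : bact chevE6 J ω 42 = r ∧ bact chevE6 J ω 37 = r') (hc : com chevE6 r r' = true) :
    P hK ω r r' h * P hK ω r r' h = 1 := by
  refine Subtype.ext ?_
  show xG hp.inList r (1 : K) * xG hp.inList r' 1 * (xG hp.inList r (1 : K) * xG hp.inList r' 1) = 1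
  have h1 := of_com hp.inList (K := K) hc
  calc xG hp.inList r (1 : K) * xG hp.inList r' 1 * (xG hp.inList r (1 : K) * xG hp.inList r' 1)
      = xG hp.inList r (1 : K) * (xG hp.inList r' 1 * xG hp.inList r (1 : K)) * xG hp.inList r' 1 := by group
    _ = (xG hp.inList r (1 : K) * xG hp.inList r 1) * (xG hp.inList r' (1 : K) * xG hp.inList r' 1) := by
        rw [← h1]; group
    _ = 1 := by rw [xG_sq, xG_sq, mul_one]

/-- conjugacy of single root elements and of pairs -/
theorem X_isConj (hK : Fintype.card K = q ^ 2) {ω ω' : List (Fin 4)} {r r' : ℕ} (h : bact chevE6 J ω 46 = r)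
    (h' : bact chevE6 J ω' 46 = r') (κ : List (Fin 4)) (hr : r < chevE6.nroots) (hκ : bact chevE6 J κ r = r') :
    IsConj (X hK ω r h) (X hK ω' r' h') := by
  obtain ⟨g, hg, hg'⟩ := exists_word (hnG hK) κ
  rw [isConj_iff]
  refine ⟨⟨g, hg⟩, Subtype.ext ?_⟩
  show g * xG hp.inList r 1 * g⁻¹ = xG hp.inList r' 1
  rw [hg' r hr, hκ]

theorem P_isConj (hK : Fintype.card K = q ^ 2) {ω ω' : List (Fin 4)} {r r' s s' : ℕ}
    (h : bact chevE6 J ω 42 = r ∧ bact chevE6 J ω 37 = r')
    (h' : bact chevE6 J ω' 42 = s ∧ bact chevE6 J ω' 37 = s') (κ : List (Fin 4)) (hr : r < chevE6.nroots)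
    (hr' : r' < chevE6.nroots) (hκ : bact chevE6 J κ r = s) (hκ' : bact chevE6 J κ r' = s') :
    IsConj (P hK ω r r' h) (P hK ω' s s' h') := by
  obtain ⟨g, hg, hg'⟩ := exists_word (hnG hK) κ
  rw [isConj_iff]
  refine ⟨⟨g, hg⟩, Subtype.ext ?_⟩
  show g * (xG hp.inList r 1 * xG hp.inList r' 1) * g⁻¹ = xG hp.inList s 1 * xG hp.inList s' 1
  have h2 : g * (xG hp.inList r (1 : K) * xG hp.inList r' 1) * g⁻¹ =
      (g * xG hp.inList r 1 * g⁻¹) * (g * xG hp.inList r' 1 * g⁻¹) := by group
  rw [h2, hg' r hr, hg' r' hr', hκ, hκ']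

/-- the representatives -/
abbrev x71 (hK : Fintype.card K = q ^ 2) : ↥(twistedE6 K q) := X hK [0, 1, 2, 3, 1, 2, 1] 71 (by decide +kernel)
abbrev x70 (hK : Fintype.card K = q ^ 2) : ↥(twistedE6 K q) := X hK [1, 2, 3, 1, 2, 1] 70 (by decide +kernel)
abbrev x69 (hK : Fintype.card K = q ^ 2) : ↥(twistedE6 K q) := X hK [2, 3, 1, 2, 1] 69 (by decide +kernel)
abbrev x39 (hK : Fintype.card K = q ^ 2) : ↥(twistedE6 K q) := X hK [0, 1] 39 (by decide +kernel)
abbrev x46 (hK : Fintype.card K = q ^ 2) : ↥(twistedE6 K q) := X hK [] 46 (by decide +kernel)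
abbrev x53 (hK : Fintype.card K = q ^ 2) : ↥(twistedE6 K q) := X hK [1, 2, 1] 53 (by decide +kernel)
abbrev p66 (hK : Fintype.card K = q ^ 2) : ↥(twistedE6 K q) := P hK [3, 2, 1, 2, 3, 2, 0, 1] 66 68 (by decide +kernel)
abbrev p55 (hK : Fintype.card K = q ^ 2) : ↥(twistedE6 K q) := P hK [2, 1, 2, 3, 2, 0, 1] 55 67 (by decide +kernel)
abbrev p56 (hK : Fintype.card K = q ^ 2) : ↥(twistedE6 K q) := P hK [2, 3] 56 36 (by decide +kernel)
abbrev p37 (hK : Fintype.card K = q ^ 2) : ↥(twistedE6 K q) := P hK [1, 2, 1] 37 42 (by decide +kernel)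
abbrev p54 (hK : Fintype.card K = q ^ 2) : ↥(twistedE6 K q) := P hK [1, 2, 3, 2, 0, 1] 54 64 (by decide +kernel)
abbrev p41 (hK : Fintype.card K = q ^ 2) : ↥(twistedE6 K q) := P hK [3, 2, 1] 41 58 (by decide +kernel)
abbrev p62 (hK : Fintype.card K = q ^ 2) : ↥(twistedE6 K q) := P hK [2, 3, 0, 1] 62 52 (by decide +kernel)

theorem exists_rep' (hK : Fintype.card K = q ^ 2) (t : ↥(twistedE6 K q)) (ht : orderOf t = 2) :
    IsConj t (x71 hK) ∨ IsConj t (p66 hK) ∨ IsConj t (x53 hK * p66 hK) := by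
  have htt := sq_of_orderOf ht
  rcases exists_rep hK t.2 (congrArg Subtype.val htt) with h | ⟨R, hR, g, hg, hgR⟩
  · exact absurd (Subtype.ext h) (ne_one_of_orderOf ht)
  · simp only [reps, List.mem_cons, List.not_mem_nil, or_false] at hR
    rcases hR with rfl | rfl | rfl
    · left
      rw [isConj_iff]
      refine ⟨⟨g, hg⟩, Subtype.ext ?_⟩
      rw [PX_one] at hgR
      exact hgR
    · right; left
      rw [isConj_iff]
      refine ⟨⟨g, hg⟩, Subtype.ext ?_⟩
      rw [PX_two] at hgR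
      exact hgR
    · right; right
      rw [isConj_iff]
      refine ⟨⟨g, hg⟩, Subtype.ext ?_⟩
      have h1 : PX hp.inList K [53, 68, 66] = xG hp.inList 53 1 * (xG hp.inList 66 1 * xG hp.inList 68 1) := by
        rw [PX_cons, PX_two, of_com hp.inList (K := K) (show com chevE6 68 66 = true by decide +kernel)]
      rw [h1] at hgR
      exact hgR

/-- commuting root elements -/
theorem X_P (hK : Fintype.card K = q ^ 2) {ω ω' : List (Fin 4)} {r s s' : ℕ} (h : bact chevE6 J ω 46 = r)
    (h' : bact chevE6 J ω' 42 = s ∧ bact chevE6 J ω' 37 = s') (hc : (com chevE6 r s && com chevE6 r s') = true) :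
    X hK ω r h * P hK ω' s s' h' = P hK ω' s s' h' * X hK ω r h := by
  rw [Bool.and_eq_true] at hc
  refine Subtype.ext ?_
  have e1 : Commute (xG hp.inList r (1 : K)) (xG hp.inList s 1) := of_com hp.inList hc.1
  have e2 : Commute (xG hp.inList r (1 : K)) (xG hp.inList s' 1) := of_com hp.inList hc.2
  exact e1.mul_right e2

theorem X_X (hK : Fintype.card K = q ^ 2) {ω ω' : List (Fin 4)} {r s : ℕ} (h : bact chevE6 J ω 46 = r)
    (h' : bact chevE6 J ω' 46 = s) (hc : com chevE6 r s = true) :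
    X hK ω r h * X hK ω' s h' = X hK ω' s h' * X hK ω r h := Subtype.ext (of_com hp.inList hc)

theorem em (hK : Fintype.card K = q ^ 2) : EM ↥(twistedE6 K q) := by
  have c1 : x71 hK * p66 hK = p66 hK * x71 hK := X_P hK _ _ (by decide +kernel)
  have c2 : x53 hK * p66 hK = p66 hK * x53 hK := X_P hK _ _ (by decide +kernel)
  have c3 : x71 hK * x53 hK = x53 hK * x71 hK := X_X hK _ _ (by decide +kernel)
  refine em_of_commuting {x71 hK, p66 hK, x53 hK} ?_ ?_ ?_
  · rintro x (rfl | rfl | rfl)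
    · exact X_sq hK _
    · exact P_sq hK _ (by decide +kernel)
    · exact X_sq hK _
  · rintro x (rfl | rfl | rfl) y (rfl | rfl | rfl)
    · rfl
    · exact c1
    · exact c3
    · exact c1.symm
    · rfl
    · exact c2.symm
    · exact c3.symm
    · exact c2
    · rfl
  · intro t ht
    rcases exists_rep' hK t ht with h | h | h
    · obtain ⟨g, hg⟩ := isConj_iff.1 h
      exact ⟨g, by rw [hg]; exact subset_closure (by simp)⟩
    · obtain ⟨g, hg⟩ := isConj_iff.1 h
      exact ⟨g, by rw [hg]; exact subset_closure (by simp)⟩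
    · obtain ⟨g, hg⟩ := isConj_iff.1 h
      exact ⟨g, by rw [hg]; exact mul_mem (subset_closure (by simp)) (subset_closure (by simp))⟩

/-- conjugation of a pair by a pair -/
theorem PP_conj (hK : Fintype.card K = q ^ 2) {ωu ωv ωs : List (Fin 4)} {u u' v v' s s' : ℕ}
    (hu : bact chevE6 J ωu 42 = u ∧ bact chevE6 J ωu 37 = u') (hv : bact chevE6 J ωv 42 = v ∧ bact chevE6 J ωv 37 = v')
    (hs : bact chevE6 J ωs 42 = s ∧ bact chevE6 J ωs 37 = s')
    (hc : (add chevE6 u v s && add chevE6 u' v' s' && com chevE6 u u' && com chevE6 u v' && com chevE6 u s' &&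
      com chevE6 u' v && com chevE6 s v') = true) :
    P hK ωu u u' hu * P hK ωv v v' hv * (P hK ωu u u' hu)⁻¹ = P hK ωv v v' hv * P hK ωs s s' hs := by
  simp only [Bool.and_eq_true] at hc
  obtain ⟨⟨⟨⟨⟨⟨h1, h2⟩, h3⟩, h4⟩, h5⟩, h6⟩, h7⟩ := hc
  refine Subtype.ext ?_
  exact pair_conj (xG_sq _ _ _) (xG_sq _ _ _) (xG_sq _ _ _) (of_add hp.inList h1) (of_add hp.inList h2)
    (of_com hp.inList h3) (of_com hp.inList h4) (of_com hp.inList h5) (of_com hp.inList h6) (of_com hp.inList h7)

theorem XX_conj (hK : Fintype.card K = q ^ 2) {ωu ωv ωs : List (Fin 4)} {u v s : ℕ}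
    (hu : bact chevE6 J ωu 46 = u) (hv : bact chevE6 J ωv 46 = v) (hs : bact chevE6 J ωs 46 = s)
    (hc : add chevE6 u v s = true) :
    X hK ωu u hu * X hK ωv v hv * (X hK ωu u hu)⁻¹ = X hK ωv v hv * X hK ωs s hs := by
  refine Subtype.ext ?_
  show xG hp.inList u (1 : K) * xG hp.inList v 1 * (xG hp.inList u (1 : K))⁻¹ = xG hp.inList v (1 : K) * xG hp.inList s 1
  rw [inv_eq_of_mul_eq_one_left (xG_sq hp.inList u (1 : K))]
  exact of_add hp.inList hc

/-- `s` is a commutator of `u` and `v` -/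
theorem commutator_of {G : Type v} [Group G] {u v s : G} (h : u * v * u⁻¹ = v * s) (hvs : v * s = s * v) : s = ⁅u, v⁆ := by
  rw [commutatorElement_def, h, hvs, mul_inv_cancel_right]

theorem all_lift (hK : Fintype.card K = q ^ 2) {L : Type v} [Group L] {π : L →* ↥(twistedE6 K q)}
    (hs : Function.Surjective π) (hc : π.ker ≤ center L) (h2 : ∀ z ∈ π.ker, z * z = 1) (t : ↥(twistedE6 K q))
    (ht : orderOf t = 2) : Lft π t := by
  have key : ∀ a u v b : ↥(twistedE6 K q), u * a = a * u → v * a = a * v → b = ⁅u, v⁆ →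
      ∃ C : Subgroup ↥(twistedE6 K q), (∀ c ∈ C, c * a = a * c) ∧ b ∈ ⁅C, C⁆ := by
    intro a u v b hu hv hb
    refine ⟨centralizer {a}, fun c hc => mem_centralizer_singleton_iff.1 hc, ?_⟩
    rw [hb]
    exact commutator_mem_commutator (mem_centralizer_singleton_iff.2 hu) (mem_centralizer_singleton_iff.2 hv)
  -- long roots
  have hlong : Lft π (x71 hK) := by
    obtain ⟨C, hC, hb⟩ := key (x71 hK) (x39 hK) (x69 hK) (x70 hK) (X_X hK _ _ (by decide +kernel))
      (X_X hK _ _ (by decide +kernel)) (commutator_of (XX_conj hK _ _ _ (by decide +kernel))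
        (X_X hK _ _ (by decide +kernel)))
    refine lft_of_four hs hc h2 (X_sq hK _) hC hb (X_isConj hK _ _ [0] (by decide +kernel) (by decide +kernel)) ?_
    have h5 : x46 hK * x70 hK * (x46 hK)⁻¹ = x70 hK * x71 hK := XX_conj hK _ _ _ (by decide +kernel)
    have h6 : x71 hK * x70 hK = x70 hK * x71 hK := X_X hK _ _ (by decide +kernel)
    rw [h6]
    exact (X_isConj hK _ _ [0] (by decide +kernel) (by decide +kernel)).trans (isConj_iff.2 ⟨_, h5⟩)
  -- `[37,42] [54,64] = [55,67]`, both commute with `[66,68]`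
  have hPP : ∀ {ω ω' : List (Fin 4)} {r r' s s' : ℕ} (h : bact chevE6 J ω 42 = r ∧ bact chevE6 J ω 37 = r')
      (h' : bact chevE6 J ω' 42 = s ∧ bact chevE6 J ω' 37 = s'),
      (com chevE6 r s && com chevE6 r s' && com chevE6 r' s && com chevE6 r' s') = true →
      P hK ω r r' h * P hK ω' s s' h' = P hK ω' s s' h' * P hK ω r r' h := by
    intro ω ω' r r' s s' h h' hcc
    simp only [Bool.and_eq_true] at hcc
    obtain ⟨⟨⟨h1, h2⟩, h3⟩, h4⟩ := hcc
    refine Subtype.ext ?_
    have e1 : Commute (xG hp.inList r (1 : K)) (xG hp.inList s 1) := of_com hp.inList h1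
    have e2 : Commute (xG hp.inList r (1 : K)) (xG hp.inList s' 1) := of_com hp.inList h2
    have e3 : Commute (xG hp.inList r' (1 : K)) (xG hp.inList s 1) := of_com hp.inList h3
    have e4 : Commute (xG hp.inList r' (1 : K)) (xG hp.inList s' 1) := of_com hp.inList h4
    exact (e1.mul_right e2).mul_left (e3.mul_right e4)
  have hshort : Lft π (p66 hK) := by
    have e37 : p37 hK * p66 hK = p66 hK * p37 hK := by
      refine Subtype.ext ?_
      exact pair_comm (z := xG hp.inList 69 (1 : K)) (xG_sq _ _ _) (xG_sq _ _ _) (xG_sq _ _ _)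
        (of_com hp.inList (by decide +kernel)) (of_com hp.inList (by decide +kernel))
        (of_com hp.inList (by decide +kernel)) (of_add hp.inList (by decide +kernel))
        (of_add hp.inList (by decide +kernel)) (of_com hp.inList (by decide +kernel))
        (of_com hp.inList (by decide +kernel))
    obtain ⟨C, hC, hb⟩ := key (p66 hK) (p37 hK) (p54 hK) (p55 hK) e37 (hPP _ _ (by decide +kernel))
      (commutator_of (PP_conj hK _ _ _ (by decide +kernel)) (hPP _ _ (by decide +kernel)))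
    have h4 : IsConj (p66 hK) (p55 hK) := P_isConj hK _ _ [3] (by decide +kernel) (by decide +kernel) (by decide +kernel)
      (by decide +kernel)
    refine lft_of_four hs hc h2 (P_sq hK _ (by decide +kernel)) hC hb h4 ?_
    have h5 : p56 hK * p55 hK * (p56 hK)⁻¹ = p55 hK * p66 hK := PP_conj hK _ _ _ (by decide +kernel)
    have h6 : p66 hK * p55 hK = p55 hK * p66 hK := hPP _ _ (by decide +kernel)
    rw [h6]
    exact h4.trans (isConj_iff.2 ⟨_, h5⟩)
  have hprod : Lft π (x53 hK * p66 hK) := by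
    obtain ⟨C, hC, hb⟩ := key (x53 hK) (p41 hK) (p62 hK) (p66 hK) (X_P hK _ _ (by decide +kernel)).symm
      (X_P hK _ _ (by decide +kernel)).symm (commutator_of (PP_conj hK _ _ _ (by decide +kernel))
        (hPP _ _ (by decide +kernel)))
    refine lft_mul hs hc hC hb (hlong.isConj hs ?_) hshort
    exact (X_isConj hK _ _ [0, 1, 2, 3] (by decide +kernel) (by decide +kernel)).symm
  rcases exists_rep' hK t ht with h | h | h
  · exact hlong.isConj hs h.symm
  · exact hshort.isConj hs h.symm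
  · exact hprod.isConj hs h.symm

/-- **The row `²E₆(q)`, `q` even.** -/
theorem crow_2e6_even {L : Type v} [Group L] {K : Type} [Field K] [Fintype K] {q : ℕ} (hK : Fintype.card K = q ^ 2)
    (hq : Even q) (e : L ≃* Cfsg.Lie.twistedE6 K q) : CRow L := by
  have hpK : CharP K 2 := by
    obtain ⟨n, hp, hcard⟩ := FiniteField.card K (ringChar K)
    have h1 : 2 ∣ ringChar K ^ (n : ℕ) := by
      rw [← hcard, hK]
      exact (even_iff_two_dvd.1 hq).trans (dvd_pow_self q (by norm_num))
    have h2 : 2 ∣ ringChar K := Nat.prime_two.dvd_of_dvd_pow h1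
    have h3 : ringChar K = 2 := ((Nat.prime_dvd_prime_iff_eq Nat.prime_two hp).1 h2).symm
    rw [← h3]
    infer_instance
  refine CRow.congr e ?_
  by_cases h2 : q = 2
  · subst h2
    have hm := Cfsg.Agent.S2109.result (K := K) (by rw [hK]; norm_num)
    have hexp : ExpTwo ↥(twistedE6 K 2) := by
      refine expTwo_of_mult hm fun a => ⟨3, by decide, ?_⟩
      revert a
      show ∀ a : Multiplicative (ZMod 3 × ZMod 2 × ZMod 2), a ^ 6 = 1
      decide
    intro M _ _ π hπ hM
    exact em_of_all_lift hπ.surj hπ.cen (hexp M π hπ hM) (all_lift hK hπ.surj hπ.cen (hexp M π hπ hM)) (em hK)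
  · have hpp : IsPrimePow q := by
      obtain ⟨n, hpr, hcard⟩ := FiniteField.card K 2
      have h1 : IsPrimePow (q ^ 2) := by
        rw [← hK, hcard]
        exact (Nat.prime_two.isPrimePow).pow n.2.ne'
      exact (isPrimePow_pow_iff (by norm_num)).1 h1
    refine CRow.of_noCov (noCov_of_cyclic (Cfsg.Agent.S2108.result hpp hK h2) ?_) (em hK)
    exact Odd.of_dvd_nat (by decide : Odd 3) (Nat.gcd_dvd_left 3 (q + 1))

end Cfsg.Agent.H601.EM.TwESix
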